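import Cfsg.Agent.TripleCover.Transfer
import Cfsg.Agent.TripleCover.Bounds
import Cfsg.Agent.AltCover.Eight

/-!
The alternating groups of degree six and seven: the Schur multiplier is cyclic of order six.
-/

set_option autoImplicit false
set_option synthInstance.maxSize 4000
set_option synthInstance.maxHeartbeats 400000

namespace CfsgLib.TripleCover

open Equiv

variable (n : ℕ)

/-- A transposition, or the identity when out of range. -/
def sw (k l : ℕ) : Perm (Fin n) :=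
  if h : k < n ∧ l < n then swap ⟨k, h.1⟩ ⟨l, h.2⟩ else 1

/-- The three-cycle `(0 1 2)`. -/
def cA : Perm (Fin n) := sw n 0 1 * sw n 1 2

/-- The three-cycle `(3 4 5)`. -/
def cB : Perm (Fin n) := sw n 3 4 * sw n 4 5

/-- The element `(0 1 2 3)(4 5)`. -/
def cF : Perm (Fin n) := sw n 0 1 * sw n 1 2 * sw n 2 3 * sw n 4 5

/-- The element `(0 2)(4 5)`. -/
def cY : Perm (Fin n) := sw n 0 2 * sw n 4 5

/-- The elements of the Sylow 3-subgroup. -/
def elt (v : ZMod 3 × ZMod 3) : Perm (Fin n) := cA n ^ v.1.val * cB n ^ v.2.val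

/-- The elements of the Sylow 2-subgroup. -/
def dih : DihedralGroup 4 → Perm (Fin n)
  | .r i => cF n ^ i.val
  | .sr i => cY n * cF n ^ i.val

/-- Odd elements realising the pairs of determinant minus one. -/
def odds : List (Perm (Fin n)) :=
  [sw n 1 2, sw n 4 5, sw n 0 3 * sw n 1 4 * sw n 2 5,
    sw n 0 3 * sw n 1 4 * sw n 2 5 * sw n 1 2 * sw n 4 5]

theorem elt_facts (hn : n = 6 ∨ n = 7) :
    (∀ v w, elt n (v + w) = elt n v * elt n w) ∧ (∀ v, elt n v = 1 → v = 0) ∧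
      (∀ v, Perm.sign (elt n v) = 1) ∧
      (∀ v (z : Fin n), z.val = 0 → ((elt n v z).val : ZMod 3) = v.1) ∧
      (∀ v (z : Fin n), z.val = 3 → ((elt n v z).val : ZMod 3) = v.2) := by
  rcases hn with rfl | rfl <;> decide +kernel

theorem dih_facts (hn : n = 6 ∨ n = 7) :
    (∀ v w, dih n (v * w) = dih n v * dih n w) ∧ (∀ v, dih n v = 1 → v = 1) ∧
      (∀ v, Perm.sign (dih n v) = 1) ∧ cY n * cF n * (cY n)⁻¹ * cF n = 1 ∧ cF n ^ 2 ≠ 1 ∧
      cF n ^ 4 = 1 := by
  rcases hn with rfl | rfl <;> decide +kernel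

theorem orbit_facts (hn : n = 6 ∨ n = 7) :
    (∀ z : Fin n, (∀ x : Fin n, x.val = 0 → z = x ∨ z = cA n x ∨ z = cA n (cA n x)) ∨
      (∀ x : Fin n, x.val = 3 → z = x ∨ z = cB n x ∨ z = cB n (cB n x)) ∨
      (cA n z = z ∧ cB n z = z)) ∧
    (∀ z w : Fin n, cA n z = z → cB n z = z → cA n w = w → cB n w = w → z = w) ∧
    (∀ x : Fin n, x.val = 0 → cA n x ≠ x ∧ cB n x = x ∧
      ∀ z : Fin n, cA n z ≠ z → z = x ∨ z = cA n x ∨ z = cA n (cA n x)) ∧
    (∀ x : Fin n, x.val = 3 → cB n x ≠ x ∧ cA n x = x ∧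
      ∀ z : Fin n, cB n z ≠ z → z = x ∨ z = cB n x ∨ z = cB n (cB n x)) ∧
    cA n ^ 3 = 1 ∧ cB n ^ 3 = 1 ∧ cA n * cB n = cB n * cA n ∧ elt n (1, 0) = cA n ∧
    elt n (0, 1) = cB n := by
  rcases hn with rfl | rfl <;> decide +kernel

theorem pair_facts (hn : n = 6 ∨ n = 7) :
    ∀ v w : ZMod 3 × ZMod 3, v.1 * w.2 - w.1 * v.2 ≠ 1 →
      ∀ y : Fin n, elt n v y ≠ y → elt n w y = y →
        ∀ z : Fin n, elt n w z ≠ z → elt n v z = z →
          ∃ s ∈ odds n, Perm.sign s = -1 ∧ s * cA n = elt n v * s ∧ s * cB n = elt n w * s := by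
  rcases hn with rfl | rfl <;> decide +kernel

variable {n}

theorem sign_eq_one_of_centralizes (hn : n = 6 ∨ n = 7) {k : Perm (Fin n)}
    (ha : k * cA n = cA n * k) (hb : k * cB n = cB n * k) : Perm.sign k = 1 := by
  obtain ⟨horb, huniq, h0, h3, hA3, hB3, hAB, -, -⟩ := orbit_facts n hn
  obtain ⟨hadd, -, hsign, hv0, hv3⟩ := elt_facts n hn
  have hka : ∀ x, k (cA n x) = cA n (k x) := fun x => DFunLike.congr_fun ha x
  have hkb : ∀ x, k (cB n x) = cB n (k x) := fun x => DFunLike.congr_fun hb x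
  set x₀ : Fin n := ⟨0, by omega⟩
  set x₃ : Fin n := ⟨3, by omega⟩
  obtain ⟨m₀, f₀, o₀⟩ := h0 x₀ rfl
  obtain ⟨m₃, f₃, o₃⟩ := h3 x₃ rfl
  obtain ⟨i, hi⟩ : ∃ i : ℕ, k x₀ = (cA n ^ i) x₀ := by
    rcases o₀ (k x₀) (fun h => m₀ (k.injective (by rw [hka, h]))) with h | h | h
    exacts [⟨0, by simpa using h⟩, ⟨1, by simpa using h⟩, ⟨2, by simpa [sq] using h⟩]
  obtain ⟨j, hj⟩ : ∃ j : ℕ, k x₃ = (cB n ^ j) x₃ := by
    rcases o₃ (k x₃) (fun h => m₃ (k.injective (by rw [hkb, h]))) with h | h | h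
    exacts [⟨0, by simpa using h⟩, ⟨1, by simpa using h⟩, ⟨2, by simpa [sq] using h⟩]
  set t := cA n ^ i * cB n ^ j with ht
  have hta : ∀ x, t (cA n x) = cA n (t x) := fun x => by
    have hc : Commute t (cA n) := ((Commute.refl (cA n)).pow_left i).mul_left
      ((show Commute (cB n) (cA n) from hAB.symm).pow_left j)
    exact DFunLike.congr_fun hc.eq x
  have htb : ∀ x, t (cB n x) = cB n (t x) := fun x => by
    have hc : Commute t (cB n) := ((show Commute (cA n) (cB n) from hAB).pow_left i).mul_left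
      ((Commute.refl (cB n)).pow_left j)
    exact DFunLike.congr_fun hc.eq x
  have hpowfix : ∀ (c : Perm (Fin n)) (x : Fin n) (m : ℕ), c x = x → (c ^ m) x = x := by
    intro c x m h
    induction m with
    | zero => rfl
    | succ m ih => rw [pow_succ, Perm.mul_apply, h, ih]
  have e₀ : k x₀ = t x₀ := by rw [ht, Perm.mul_apply, hpowfix _ _ j f₀, hi]
  have e₃ : k x₃ = t x₃ := by
    rw [ht, ((show Commute (cA n) (cB n) from hAB).pow_pow i j).eq, Perm.mul_apply,
      hpowfix _ _ i f₃, hj]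
  have hkt : k = t := by
    ext1 x
    rcases horb x with h | h | ⟨hx1, hx2⟩
    · rcases h x₀ rfl with rfl | rfl | rfl
      · exact e₀
      · rw [hka, hta, e₀]
      · rw [hka, hka, hta, hta, e₀]
    · rcases h x₃ rfl with rfl | rfl | rfl
      · exact e₃
      · rw [hkb, htb, e₃]
      · rw [hkb, hkb, htb, htb, e₃]
    · rw [huniq (k x) x (by rw [← hka, hx1]) (by rw [← hkb, hx2]) hx1 hx2,
        huniq (t x) x (by rw [← hta, hx1]) (by rw [← htb, hx2]) hx1 hx2]
  have hA1 : Perm.sign (cA n) = 1 := by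
    have := hsign (1, 0)
    rwa [(orbit_facts n hn).2.2.2.2.2.2.2.1] at this
  have hB1 : Perm.sign (cB n) = 1 := by
    have := hsign (0, 1)
    rwa [(orbit_facts n hn).2.2.2.2.2.2.2.2] at this
  rw [hkt, ht, map_mul, map_pow, map_pow, hA1, hB1, one_pow, one_pow, one_mul]

theorem det_eq_one (hn : n = 6 ∨ n = 7) {h : Perm (Fin n)} (hh : Perm.sign h = 1)
    {v w : ZMod 3 × ZMod 3} (hv : h * cA n = elt n v * h) (hw : h * cB n = elt n w * h) :
    v.1 * w.2 - w.1 * v.2 = 1 := by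
  obtain ⟨-, -, h0, h3, -⟩ := orbit_facts n hn
  obtain ⟨m₀, f₀, -⟩ := h0 ⟨0, by omega⟩ rfl
  obtain ⟨m₃, f₃, -⟩ := h3 ⟨3, by omega⟩ rfl
  have hva : ∀ x, elt n v (h x) = h (cA n x) := fun x => (DFunLike.congr_fun hv x).symm
  have hwb : ∀ x, elt n w (h x) = h (cB n x) := fun x => (DFunLike.congr_fun hw x).symm
  by_contra hne
  obtain ⟨s, -, hs, hsa, hsb⟩ := pair_facts n hn v w hne (h ⟨0, by omega⟩)
    (by rw [hva]; exact fun e => m₀ (h.injective e)) (by rw [hwb, f₀]) (h ⟨3, by omega⟩)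
    (by rw [hwb]; exact fun e => m₃ (h.injective e)) (by rw [hva, f₃])
  have hk := sign_eq_one_of_centralizes hn (k := s⁻¹ * h)
    (by rw [mul_assoc, hv, ← mul_assoc, ← mul_assoc]; congr 1
        rw [inv_mul_eq_iff_eq_mul, ← mul_assoc, hsa, mul_inv_cancel_right])
    (by rw [mul_assoc, hw, ← mul_assoc, ← mul_assoc]; congr 1
        rw [inv_mul_eq_iff_eq_mul, ← mul_assoc, hsb, mul_inv_cancel_right])
  rw [map_mul, map_inv, hs, hh, mul_one] at hk
  exact absurd hk (by decide)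

theorem index_not_dvd (hn : n = 6 ∨ n = 7) {H : Subgroup (alternatingGroup (Fin n))} {p c : ℕ}
    (hH : Nat.card H = c) (hpc : (p = 2 ∧ c = 8) ∨ (p = 3 ∧ c = 9)) : ¬ p ∣ H.index := by
  haveI : Nontrivial (Fin n) := Fin.nontrivial_iff_two_le.2 (by omega)
  have h := H.card_mul_index
  have h2 := two_mul_card_alternatingGroup (α := Fin n)
  rw [← Nat.card_eq_fintype_card, Fintype.card_perm, Fintype.card_fin, ← h, hH] at h2
  intro ⟨t, ht⟩
  rw [ht] at h2
  rcases hn with rfl | rfl <;> rcases hpc with ⟨rfl, rfl⟩ | ⟨rfl, rfl⟩ <;>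
    simp [Nat.factorial] at h2 <;> omega

theorem exists_three (hn : n = 6 ∨ n = 7) :
    ∃ (P : Subgroup (alternatingGroup (Fin n))) (a b : alternatingGroup (Fin n)),
      Nat.card P = 9 ∧ ¬ 3 ∣ P.index ∧ P ≤ Subgroup.closure {a, b} ∧ a ^ 3 = 1 ∧ a * b = b * a ∧
      ∃ (Γ : Type) (_ : Group Γ) (_ : Finite Γ) (σ : Γ →* alternatingGroup (Fin n)),
        Cfsg.IsStemExtension σ ∧ Nat.card σ.ker = 3 := by
  obtain ⟨hadd, hinj, hsign, hv0, hv3⟩ := elt_facts n hn
  obtain ⟨-, -, -, -, hA3, hB3, hAB, hA10, hB01⟩ := orbit_facts n hn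
  let φ : Multiplicative (ZMod 3 × ZMod 3) →* alternatingGroup (Fin n) :=
    MonoidHom.mk' (fun v => ⟨elt n v.toAdd, Perm.mem_alternatingGroup.2 (hsign _)⟩)
      fun v w => Subtype.ext (hadd _ _)
  have hφ : ∀ v, ((φ (Multiplicative.ofAdd v) : alternatingGroup (Fin n)) : Perm (Fin n)) = elt n v :=
    fun v => rfl
  have hφi : Function.Injective φ := (injective_iff_map_eq_one φ).2 fun v hv =>
    Multiplicative.toAdd.injective (hinj v.toAdd (congrArg Subtype.val hv))
  have hcard : Nat.card φ.range = 9 := by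
    rw [← Nat.card_congr (MonoidHom.ofInjective hφi).toEquiv, Nat.card_congr Multiplicative.toAdd,
      Nat.card_prod, Nat.card_zmod]
  set a := φ (Multiplicative.ofAdd (1, 0))
  set b := φ (Multiplicative.ofAdd (0, 1))
  have hgen : φ.range ≤ Subgroup.closure {a, b} := by
    rintro _ ⟨v, rfl⟩
    have : φ v = a ^ v.toAdd.1.val * b ^ v.toAdd.2.val := by
      refine Subtype.ext ?_
      show elt n v.toAdd = elt n (1, 0) ^ v.toAdd.1.val * elt n (0, 1) ^ v.toAdd.2.val
      rw [hA10, hB01]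
      rfl
    rw [this]
    exact mul_mem (pow_mem (Subgroup.subset_closure (Set.mem_insert _ _)) _)
      (pow_mem (Subgroup.subset_closure (Set.mem_insert_of_mem _ (Set.mem_singleton _))) _)
  have hidx := index_not_dvd hn (p := 3) hcard (Or.inr ⟨rfl, rfl⟩)
  have ha3 : a ^ 3 = 1 := Subtype.ext (by show elt n (1, 0) ^ 3 = 1; rw [hA10, hA3])
  have hab : a * b = b * a := (Commute.all _ _).map φ
  refine ⟨φ.range, a, b, hcard, hidx, hgen, ha3, hab, ?_⟩
  let χ : ℕ → alternatingGroup (Fin n) → ZMod 3 := fun i g =>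
    if h : i < n then (((g : Perm (Fin n)) ⟨i, h⟩).val : ZMod 3) else 0
  have hχ0 : ∀ v, χ 0 (φ v) = v.toAdd.1 := fun v => by
    show (if h : 0 < n then _ else _) = _
    rw [dif_pos (show 0 < n by omega)]; exact hv0 _ _ rfl
  have hχ3 : ∀ v, χ 3 (φ v) = v.toAdd.2 := fun v => by
    show (if h : 3 < n then _ else _) = _
    rw [dif_pos (show 3 < n by omega)]; exact hv3 _ _ rfl
  refine exists_stem_three φ.range hcard hidx ha3
    (Subtype.ext (by show elt n (0, 1) ^ 3 = 1; rw [hB01, hB3])) ⟨_, rfl⟩ ⟨_, rfl⟩ hab hgen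
    (χ 0) (χ 3) ?_ ?_ ?_
  · rintro _ ⟨v, rfl⟩ _ ⟨w, rfl⟩; rw [← map_mul, hχ0, hχ0, hχ0]; rfl
  · rintro _ ⟨v, rfl⟩ _ ⟨w, rfl⟩; rw [← map_mul, hχ3, hχ3, hχ3]; rfl
  · intro g ⟨v, hv⟩ ⟨w, hw⟩
    rw [← hv, ← hw, hχ0, hχ0, hχ3, hχ3]
    have hv' : elt n v.toAdd = (g : Perm (Fin n))⁻¹ * elt n (1, 0) * (g : Perm (Fin n)) :=
      congrArg Subtype.val hv
    have hw' : elt n w.toAdd = (g : Perm (Fin n))⁻¹ * elt n (0, 1) * (g : Perm (Fin n)) :=
      congrArg Subtype.val hw
    refine det_eq_one hn (h := (g : Perm (Fin n))⁻¹)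
      (by rw [map_inv, Perm.mem_alternatingGroup.1 g.2, inv_one]) ?_ ?_
    · rw [hv', hA10, mul_inv_cancel_right]
    · rw [hw', hB01, mul_inv_cancel_right]

theorem card_ker_dvd_six (hn : n = 6 ∨ n = 7) {Γ : Type} [Group Γ] [Finite Γ]
    {σ : Γ →* alternatingGroup (Fin n)} (hσ : Cfsg.IsStemExtension σ) : Nat.card σ.ker ∣ 6 := by
  have h4 : ¬ 2 ^ 2 ∣ Nat.card σ.ker := by
    obtain ⟨hmul, hinj, hsign, hy, h2, hF4⟩ := dih_facts n hn
    let ψ : DihedralGroup 4 →* alternatingGroup (Fin n) :=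
      MonoidHom.mk' (fun v => ⟨dih n v, Perm.mem_alternatingGroup.2 (hsign _)⟩)
        fun v w => Subtype.ext (hmul _ _)
    have hψi : Function.Injective ψ :=
      (injective_iff_map_eq_one ψ).2 fun v hv => hinj v (congrArg Subtype.val hv)
    have hcard : Nat.card ψ.range = 8 := by
      rw [← Nat.card_congr (MonoidHom.ofInjective hψi).toEquiv, DihedralGroup.nat_card]
    have hF : ((ψ (.r 1) : alternatingGroup (Fin n)) : Perm (Fin n)) = cF n := pow_one _
    have hY : ((ψ (.sr 0) : alternatingGroup (Fin n)) : Perm (Fin n)) = cY n := mul_one _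
    refine not_four_dvd_ker hσ ψ.range (index_not_dvd hn hcard (Or.inl ⟨rfl, rfl⟩))
      (a := ψ (.r 1)) (y := ψ (.sr 0)) ?_ (Subtype.ext (by
        show ((ψ (.r 1) : alternatingGroup (Fin n)) : Perm (Fin n)) ^ 4 = 1; rw [hF, hF4]))
      (Subtype.ext (by
        show ((ψ (.sr 0) : alternatingGroup (Fin n)) : Perm (Fin n)) * _ * _⁻¹ * _ = 1
        rw [hF, hY, hy]))
      (fun h => h2 (by rw [← hF]; exact congrArg Subtype.val h))
    rintro _ ⟨v, rfl⟩
    have hr : ∀ i : ZMod 4, (DihedralGroup.r i : DihedralGroup 4) = DihedralGroup.r 1 ^ i.val :=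
      fun i => by rw [DihedralGroup.r_one_pow, ZMod.natCast_zmod_val]
    cases v with
    | r i =>
      rw [hr, map_pow]
      exact pow_mem (Subgroup.subset_closure (Set.mem_insert _ _)) _
    | sr i =>
      rw [show (DihedralGroup.sr i : DihedralGroup 4) = DihedralGroup.sr 0 * DihedralGroup.r i by
        rw [DihedralGroup.sr_mul_r, zero_add], hr, map_mul, map_pow]
      exact mul_mem (Subgroup.subset_closure (Set.mem_insert_of_mem _ (Set.mem_singleton _)))
        (pow_mem (Subgroup.subset_closure (Set.mem_insert _ _)) _)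
  obtain ⟨P, a, b, -, hidx, hgen, ha3, hab, -⟩ := exists_three hn
  have h9 := not_nine_dvd_ker hσ P hidx hgen ha3 hab
  have hbig : ∀ p : ℕ, p.Prime → 5 ≤ p → ¬ p ∣ Nat.card σ.ker := by
    intro p hp hp5
    haveI := Fact.mk hp
    haveI : Nontrivial (Fin n) := Fin.nontrivial_iff_two_le.2 (by omega)
    obtain ⟨S⟩ : Nonempty (Sylow p (alternatingGroup (Fin n))) := inferInstance
    obtain ⟨k, hk⟩ := IsPGroup.iff_card.1 S.isPGroup'
    have hk1 : k ≤ 1 := by
      by_contra hk2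
      have hd : p ^ 2 ∣ Fintype.card (Perm (Fin n)) := by
        rw [← two_mul_card_alternatingGroup (α := Fin n), ← Nat.card_eq_fintype_card]
        exact ((pow_dvd_pow p (by omega : 2 ≤ k)).trans (hk ▸ Subgroup.card_subgroup_dvd_card _)).trans
          (dvd_mul_left _ 2)
      rw [Fintype.card_perm, Fintype.card_fin] at hd
      have hp7 : p ≤ n :=
        (Nat.Prime.dvd_factorial hp).1 ((dvd_pow_self p two_ne_zero).trans hd)
      rcases hn with rfl | rfl <;> interval_cases p <;> revert hp hd <;> norm_num [Nat.factorial]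
    haveI : IsCyclic (S : Subgroup (alternatingGroup (Fin n))) := by
      rcases Nat.eq_zero_or_pos k with rfl | hk0
      · haveI : Subsingleton (S : Subgroup (alternatingGroup (Fin n))) :=
          (Nat.card_eq_one_iff_unique.1 (by rw [hk, pow_zero])).1
        exact isCyclic_of_subsingleton
      · exact isCyclic_of_prime_card (p := p) (by rw [hk, show k = 1 by omega, pow_one])
    exact Schur.not_dvd_card_ker_of_isCyclic hσ (S : Subgroup (alternatingGroup (Fin n)))
      S.not_dvd_index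
  rw [Nat.dvd_iff_prime_pow_dvd_dvd]
  intro p k hp hdvd
  rcases Nat.lt_or_ge k 1 with hk | hk
  · rw [show k = 0 by omega, pow_zero]; exact one_dvd 6
  have hp23 : p = 2 ∨ p = 3 := by
    by_contra h
    push Not at h
    have h5 : 5 ≤ p := by
      have := hp.two_le
      rcases Nat.lt_or_ge p 5 with hlt | hge
      · interval_cases p <;> simp_all (config := {decide := true})
      · exact hge
    exact hbig p hp h5 ((dvd_pow_self p (by omega)).trans hdvd)
  have hk1 : k = 1 := by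
    by_contra hne
    rcases hp23 with rfl | rfl
    · exact h4 ((pow_dvd_pow 2 (by omega)).trans hdvd)
    · exact h9 ((pow_dvd_pow 3 (by omega)).trans hdvd)
  subst hk1
  rcases hp23 with rfl | rfl <;> norm_num

end CfsgLib.TripleCover
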