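import Cfsg.Agent.Eq.Def_KGroupFacts
import Cfsg.Agent.AltCover.Eight
import Cfsg.Agent.SchurMult.Central

/-!
A stem extension with kernel of order two of the alternating groups of degree five to eight,
cut out of the double cover in degree eight.
-/

set_option autoImplicit false

namespace CfsgLib.TripleCover

open Equiv CfsgLib.AltCover

theorem exists_coverHom : ∃ θ : coverEight →* Perm (Fin 8),
    θ.ker = Subgroup.zpowers coverNeg ∧ θ.range = alternatingGroup (Fin 8) ∧
      θ (coverGen 1) = sgen 8 1 := by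
  set Z := Subgroup.zpowers coverNeg with hZ
  set π := QuotientGroup.mk' Z with hπ
  have hneg : ∀ g : coverEight, (g.1 : Mat8) = -1 → π g = 1 := by
    intro g hg
    rw [hπ, QuotientGroup.mk'_apply, QuotientGroup.eq_one_iff,
      show g = coverNeg from Subtype.ext (Units.ext hg)]
    exact Subgroup.mem_zpowers _
  obtain ⟨r3, r2, ra, rf⟩ := cover_relations
  let s : Fin 6 → coverEight ⧸ Z := fun i => π (coverGen i)
  have hrel : Cfsg.Agent.S3335.CarRel s := by
    refine ⟨fun i hi => ?_, fun i hi => ?_, fun i j hij => ?_, fun i j hij => ?_⟩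
    · obtain rfl : i = 0 := Fin.ext hi
      rw [← map_pow, pow_succ, sq]; exact hneg _ r3
    · rw [← map_pow, sq]; exact hneg _ (r2 i hi)
    · rw [← map_mul, ← map_pow, pow_succ, sq]; exact hneg _ (ra i j hij)
    · rw [← map_mul, ← map_pow, sq]; exact hneg _ (rf i j hij)
  let f : PresentedGroup (Cfsg.Agent.S3335.carRels 6) →* coverEight ⧸ Z :=
    PresentedGroup.toGroup (Cfsg.Agent.S3335.lift_of_carRel hrel)
  obtain ⟨eA⟩ := Cfsg.Agent.S3335.nonempty_equiv 6
  haveI : IsSimpleGroup (alternatingGroup (Fin 8)) := alternatingGroup.isSimpleGroup (by simp)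
  haveI : IsSimpleGroup (PresentedGroup (Cfsg.Agent.S3335.carRels 6)) := eA.isSimpleGroup
  have hfs : Function.Surjective f := by
    rw [← MonoidHom.range_eq_top, eq_top_iff]
    rintro a -
    obtain ⟨⟨g, hg⟩, rfl⟩ := QuotientGroup.mk'_surjective Z a
    induction hg using Subgroup.closure_induction with
    | mem g hg =>
      rcases hg with rfl | ⟨i, rfl⟩
      · exact ⟨1, by rw [map_one]; exact (hneg _ rfl).symm⟩
      · exact ⟨PresentedGroup.of i, PresentedGroup.toGroup.of _⟩
    | one => exact one_mem _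
    | mul a b ha hb iha ihb => exact mul_mem iha ihb
    | inv a ha iha => exact inv_mem iha
  have hfof : ∀ i, f (PresentedGroup.of i) = π (coverGen i) :=
    fun i => PresentedGroup.toGroup.of (h := Cfsg.Agent.S3335.lift_of_carRel hrel)
  have hfne : f ≠ 1 := by
    intro h
    have h1 : π (coverGen 1) = 1 := by rw [← hfof, h]; rfl
    rcases eq_one_or_neg ((QuotientGroup.eq_one_iff _).1 h1) with e | e
    · exact cover_involution.2.2.2.1 (congrArg (fun g : coverEight => (g.1 : Mat8)) e)
    · exact cover_involution.2.2.2.2.1 (congrArg (fun g : coverEight => (g.1 : Mat8)) e)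
  have hfi : Function.Injective f := by
    rw [← MonoidHom.ker_eq_bot_iff]
    refine (Subgroup.Normal.eq_bot_or_eq_top (inferInstance : f.ker.Normal)).resolve_right fun h => ?_
    exact hfne (MonoidHom.ext fun x => MonoidHom.mem_ker.1 (h ▸ Subgroup.mem_top x))
  let e : coverEight ⧸ Z ≃* PresentedGroup (Cfsg.Agent.S3335.carRels 6) :=
    (MulEquiv.ofBijective f ⟨hfi, hfs⟩).symm
  obtain ⟨hinj, hrange⟩ := carHom_bijOn 6
  refine ⟨(carHom 6).comp (e.toMonoidHom.comp π), ?_, ?_, ?_⟩
  · ext x
    simp only [MonoidHom.mem_ker, MonoidHom.comp_apply, MulEquiv.coe_toMonoidHom]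
    rw [map_eq_one_iff _ hinj, MulEquiv.map_eq_one_iff, hπ, QuotientGroup.mk'_apply,
      QuotientGroup.eq_one_iff]
  · rw [MonoidHom.range_comp, MonoidHom.range_eq_top.2 (e.surjective.comp
      (QuotientGroup.mk'_surjective Z)), ← MonoidHom.range_eq_map]
    exact hrange
  · show carHom 6 (e (π (coverGen 1))) = _
    rw [← hfof, show e (f (PresentedGroup.of 1)) = PresentedGroup.of 1 from
      (MulEquiv.ofBijective f ⟨hfi, hfs⟩).symm_apply_eq.2 rfl, carHom_of]
    rfl

theorem exists_stem_two {n : ℕ} (h5 : 5 ≤ n) (h8 : n ≤ 8) :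
    ∃ (Γ : Type) (_ : Group Γ) (_ : Finite Γ) (σ : Γ →* alternatingGroup (Fin n)),
      Cfsg.IsStemExtension σ ∧ Nat.card σ.ker = 2 := by
  haveI : Fact (Nat.Prime 2) := ⟨Nat.prime_two⟩
  obtain ⟨θ, hker, hrange, hgen⟩ := exists_coverHom
  let ι : alternatingGroup (Fin n) →* Perm (Fin 8) := (incl h8).comp (alternatingGroup (Fin n)).subtype
  let F := SchurMult.fibreProd θ ι
  let σ := SchurMult.fibreSnd θ ι
  have hsurj : Function.Surjective σ := by
    intro g
    have hg : ι g ∈ θ.range := by
      rw [hrange, Perm.mem_alternatingGroup]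
      show Perm.sign (incl h8 (g : Perm (Fin n))) = 1
      exact MonoidHom.mem_ker.1 (Abelianization.commutator_subset_ker
        (Perm.sign.comp ((incl h8).comp (alternatingGroup (Fin n)).subtype))
        ((commutator_alternatingGroup_eq_top (α := Fin n) (by simp [h5])) ▸ Subgroup.mem_top g))
    obtain ⟨x, hx⟩ := hg
    exact ⟨⟨(x, g), hx⟩, rfl⟩
  have hmem : ∀ w : F, w ∈ σ.ker ↔ w.1.1 ∈ θ.ker ∧ w.1.2 = 1 := by
    rintro ⟨⟨x, g⟩, h⟩
    have h' : θ x = ι g := h
    show g = 1 ↔ θ x = 1 ∧ g = 1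
    exact ⟨fun hg => ⟨by rw [h', hg, map_one], hg⟩, fun hg => hg.2⟩
  have hzmem : ((coverNeg, (1 : alternatingGroup (Fin n))) : coverEight × alternatingGroup (Fin n)) ∈ F := by
    show θ coverNeg = ι 1
    rw [map_one, ← MonoidHom.mem_ker, hker]
    exact Subgroup.mem_zpowers _
  set z : F := ⟨(coverNeg, 1), hzmem⟩
  have hel : ∀ w ∈ σ.ker, w = 1 ∨ w = z := by
    intro w hw
    obtain ⟨h1, h2⟩ := (hmem w).1 hw
    rw [hker] at h1
    rcases eq_one_or_neg h1 with e | e
    · exact Or.inl (Subtype.ext (Prod.ext e h2))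
    · exact Or.inr (Subtype.ext (Prod.ext e h2))
  have hzk : z ∈ σ.ker := rfl
  have hz1 : z ≠ 1 := fun h => coverNeg_ne (congrArg (fun w : F => w.1.1) h)
  have hcen : σ.ker ≤ Subgroup.center F := by
    intro w hw
    obtain ⟨h1, h2⟩ := (hmem w).1 hw
    rw [hker] at h1
    exact Subgroup.mem_center_iff.2 fun v => Subtype.ext (Prod.ext
      (Subgroup.mem_center_iff.1 ((Subgroup.zpowers_le.2 coverNeg_central) h1) v.1.1)
      (by show v.1.2 * w.1.2 = w.1.2 * v.1.2; rw [h2, mul_one, one_mul]))
  have hcard : Nat.card σ.ker = 2 := by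
    rw [Nat.card_eq_two_iff]
    refine ⟨⟨1, one_mem _⟩, ⟨z, hzk⟩, fun h => hz1 (congrArg Subtype.val h).symm,
      Set.eq_univ_of_forall fun w => ?_⟩
    rcases hel _ w.2 with e | e
    · exact Or.inl (Subtype.ext e)
    · exact Or.inr (Set.mem_singleton_iff.2 (Subtype.ext e))
  refine ⟨F, inferInstance, inferInstance, σ, ⟨hsurj, hcen, ?_⟩, hcard⟩
  haveI : IsSimpleGroup (alternatingGroup (Fin n)) := alternatingGroup.isSimpleGroup (by simp [h5])
  have hperf : commutator (alternatingGroup (Fin n)) = ⊤ :=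
    (commutator_alternatingGroup_eq_top (by simp [h5]))
  have hz : z ∈ commutator F := by
    by_contra hnot
    obtain ⟨a, ha⟩ := hsurj ⟨sgen n 1, Perm.mem_alternatingGroup.2 (sign_sgen (by omega))⟩
    have hgmem : ((coverGen 1, ⟨sgen n 1, Perm.mem_alternatingGroup.2 (sign_sgen (by omega))⟩) :
        coverEight × alternatingGroup (Fin n)) ∈ F := by
      show θ (coverGen 1) = incl h8 (sgen n 1)
      rw [hgen, incl_sgen h8 (by omega)]
    set g : F := ⟨_, hgmem⟩
    obtain ⟨c, hc, hcg⟩ : ∃ c ∈ commutator F, σ c = σ g := by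
      have : σ g ∈ commutator (alternatingGroup (Fin n)) := hperf ▸ Subgroup.mem_top _
      rw [commutator_def, ← MonoidHom.range_eq_top.2 hsurj, MonoidHom.range_eq_map,
        ← Subgroup.map_commutator] at this
      exact this
    have hsq : (σ g) * σ g = 1 := by
      refine Subtype.ext ?_
      show sgen n 1 * sgen n 1 = 1
      refine (show Function.Injective (incl h8) from Perm.viaEmbeddingHom_injective _) ?_
      rw [map_mul, map_one, incl_sgen h8 (by omega)]
      decide
    have hk : c⁻¹ * g ∈ σ.ker := by rw [MonoidHom.mem_ker, map_mul, map_inv, hcg, inv_mul_cancel]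
    have hcc : c * c = 1 := by
      have h2 : c * c ∈ σ.ker := by rw [MonoidHom.mem_ker, map_mul, hcg, hsq]
      exact (hel _ h2).resolve_right fun e => hnot (e ▸ mul_mem hc hc)
    have hgg : g * g = z := by
      refine Subtype.ext (Prod.ext ?_ ?_)
      · exact Subtype.ext (Units.ext (cover_relations.2.1 1 le_rfl))
      · exact hsq
    have hcomm := Subgroup.mem_center_iff.1 (hcen hk) c
    rcases hel _ hk with e | e
    · rw [inv_mul_eq_one] at e
      exact hz1 (by rw [← hgg, ← e, hcc])
    · rw [inv_mul_eq_iff_eq_mul] at e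
      have hzz : z * z = 1 := Subtype.ext (Prod.ext coverNeg_sq (one_mul 1))
      have : g * g = 1 := by
        rw [e, mul_assoc, ← mul_assoc z c, ← Subgroup.mem_center_iff.1 (hcen hzk) c, mul_assoc,
          hzz, mul_one, hcc]
      exact hz1 (hgg ▸ this)
  intro w hw
  rcases hel w hw with rfl | rfl
  exacts [one_mem _, hz]

end CfsgLib.TripleCover
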